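import Cfsg.Agent.Lib.KPerm.Peel
import Cfsg.Agent.Lib.Fgs.PiClass
import Cfsg.Agent.Lib.SolvStruct.NilParts
import Cfsg.Agent.Lib.Coprime.Sylow

/-! Counting classes of `π`-elements by coverings. -/

set_option autoImplicit false
open Finset Subgroup
open scoped Classical Pointwise

namespace CfsgLib.KPi

open Coprime Fgs KPerm

variable {G : Type*} [Group G]

theorem kPi_eq (π : Set ℕ) :
    kPi π G = Nat.card {K : ConjClasses G // IsPiNum π (orderOf (rep K))} :=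
  Nat.card_congr (Equiv.subtypeEquivRight fun K => by rw [← piClass_mk_iff, mk_rep])

theorem kPi_le_of_cover {σ : Set ℕ} (X : Subgroup G) (T : Finset G)
    (h : ∀ x ∈ X, IsPiNum σ (orderOf x) → ∃ g ∈ X, g * x * g⁻¹ ∈ T) : kPi σ X ≤ T.card := by
  rw [kPi_eq, ← Fintype.card_coe, ← Nat.card_eq_fintype_card]
  have key : ∀ K : {K : ConjClasses X // IsPiNum σ (orderOf (rep K))},
      ∃ t : X, (t : G) ∈ T ∧ ConjClasses.mk t = K.1 := fun K => by
    obtain ⟨g, hg, ht⟩ := h _ (rep K.1).2 (by rw [orderOf_coe]; exact K.2)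
    exact ⟨⟨g, hg⟩ * rep K.1 * (⟨g, hg⟩ : X)⁻¹, ht, (ConjClasses.mk_eq_mk_iff_isConj.2
      (isConj_iff.2 ⟨_, rfl⟩).symm).trans (mk_rep _)⟩
  choose t ht hK using key
  exact Nat.card_le_card_of_injective (fun K => (⟨t K, ht K⟩ : T)) fun K L e => Subtype.ext (by
    rw [← hK, ← hK, show t K = t L from Subtype.ext (congrArg (fun x : T => (x : G)) e)])

theorem kPi_le_of_dvd [Finite G] {σ : Set ℕ} {m k : ℕ} (hm : m ≠ 0) (h : Nat.card G ∣ m * k)
    (hk : IsPiNum σᶜ k) : kPi σ G ≤ m := by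
  obtain ⟨a, b, e, ha, hb⟩ := exists_piNum_mul σ (Nat.card_pos (α := G)).ne'
  exact (kPi_le e ha hb).trans (Nat.le_of_dvd (Nat.pos_of_ne_zero hm)
    ((ha.coprime hk).dvd_of_dvd_mul_right ((Dvd.intro _ e.symm).trans h)))

theorem exists_parts [Finite G] (τ : Set ℕ) (x : G) : ∃ z y : G, z * y = x ∧ Commute z y ∧
    IsPiNum τ (orderOf z) ∧ IsPiNum τᶜ (orderOf y) ∧ orderOf y ∣ orderOf x := by
  obtain ⟨a, b, e, ha, hb⟩ := exists_piNum_mul τ (orderOf_pos x).ne'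
  obtain ⟨u, v, huv⟩ := Nat.isCoprime_iff_coprime.2 (ha.coprime hb)
  have h1 : ∀ w : ℤ, x ^ (w * (a * b : ℕ)) = 1 := fun w => by
    rw [← e, mul_comm, zpow_mul, zpow_natCast, pow_orderOf_eq_one, one_zpow]
  refine ⟨x ^ (v * b), x ^ (u * a), by rw [← zpow_add, add_comm, huv, zpow_one],
    Commute.zpow_zpow_self x _ _, ha.of_dvd (orderOf_dvd_of_pow_eq_one ?_),
    hb.of_dvd (orderOf_dvd_of_pow_eq_one ?_), orderOf_dvd_of_mem_zpowers (zpow_mem_zpowers x _)⟩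
  · rw [← zpow_natCast, ← zpow_mul, ← h1 v]; congr 1; push_cast; ring
  · rw [← zpow_natCast, ← zpow_mul, ← h1 u]; congr 1; push_cast; ring

theorem kPi_le_sum [Finite G] {π σ τ : Set ℕ}
    (hπ : ∀ r, r.Prime → r ∣ Nat.card G → r ∈ π → r ∉ τ → r ∈ σ) (R : Finset G)
    (hR : ∀ z : G, IsPiNum τ (orderOf z) → ∃ g, g * z * g⁻¹ ∈ R) :
    kPi π G ≤ ∑ z ∈ R, kPi σ (centralizer {z}) := by
  let F : (Σ z : R, {K : ConjClasses (centralizer {(z : G)}) // IsPiNum σ (orderOf (rep K))}) →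
      ConjClasses G := fun s => ConjClasses.mk (s.1 * (rep s.2.1 : centralizer {(s.1 : G)}))
  have hF : ∀ K : {K : ConjClasses G // IsPiNum π (orderOf (rep K))}, ∃ s, F s = K.1 := by
    rintro ⟨K, hK⟩
    obtain ⟨y, z, hyz, hc, hy, hz, hd⟩ := exists_parts τ (rep K)
    obtain ⟨u, hu⟩ := hR y hy
    have hz' : u * z * u⁻¹ ∈ centralizer {u * y * u⁻¹} := by
      rw [mem_centralizer_singleton_iff]
      calc _ = u * (z * y) * u⁻¹ := by group
        _ = _ := by rw [← hc.eq]; group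
    obtain ⟨c, hcc⟩ := exists_rep (⟨_, hz'⟩ : centralizer {u * y * u⁻¹})
    refine ⟨⟨⟨_, hu⟩, ConjClasses.mk ⟨_, hz'⟩, ?_⟩, ?_⟩
    · rw [orderOf_rep, ← orderOf_coe, orderOf_conj']
      exact fun r hr h => hπ r hr ((h.trans hd).trans (orderOf_dvd_natCard _))
        (hK r hr (h.trans hd)) (hz r hr h)
    · simp only [F]
      rw [← hcc, ← mk_rep K, ConjClasses.mk_eq_mk_iff_isConj, ← hyz]
      refine IsConj.symm (isConj_iff.2 ⟨c * u, ?_⟩)
      have h1 := mem_centralizer_singleton_iff.1 c.2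
      calc _ = c * (u * y * u⁻¹) * (u * z * u⁻¹) * (c : G)⁻¹ := by group
        _ = _ := by rw [h1]; simp [mul_assoc]
  choose s hs using hF
  rw [kPi_eq, ← sum_coe_sort R]
  refine (Nat.card_le_card_of_injective s fun K K' h => Subtype.ext ?_).trans
    (Nat.card_sigma.trans (sum_congr rfl fun z _ => (kPi_eq σ).symm)).le
  rw [← hs, h, hs]

theorem kPi_le_mul [Finite G] {π σ τ : Set ℕ}
    (hπ : ∀ r, r.Prime → r ∣ Nat.card G → r ∈ π → r ∉ τ → r ∈ σ) {m : ℕ}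
    (hm : ∀ z : G, kPi σ (centralizer {z}) ≤ m) : kPi π G ≤ kPi τ G * m := by
  have := Fintype.ofFinite {K : ConjClasses G // IsPiNum τ (orderOf (rep K))}
  refine (kPi_le_sum hπ (univ.image
    fun K : {K : ConjClasses G // IsPiNum τ (orderOf (rep K))} => rep K.1) fun z hz => ?_).trans
    ((sum_le_card_nsmul _ _ m fun z _ => hm z).trans (Nat.mul_le_mul_right _ ?_))
  · obtain ⟨g, hg⟩ := exists_rep z
    exact ⟨g, mem_image.2 ⟨⟨ConjClasses.mk z, by rwa [orderOf_rep]⟩, mem_univ _, hg.symm⟩⟩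
  · rw [kPi_eq, Nat.card_eq_fintype_card]
    exact card_image_le

theorem exists_reps (Y : Subgroup G) (X : Finset G) (n : ℕ)
    (h : ∀ x ∈ X, ∃ T ⊆ X, n ≤ T.card ∧ ∀ y ∈ T, ∃ g ∈ Y, g * x * g⁻¹ = y) :
    ∃ R ⊆ X, n * R.card ≤ X.card ∧ ∀ x ∈ X, ∃ g ∈ Y, g * x * g⁻¹ ∈ R := by
  let f : G → Set G := fun x => {y | ∃ g ∈ Y, g * x * g⁻¹ = y}
  have hf : ∀ x y, y ∈ f x → f y = f x := by
    rintro x _ ⟨g, hg, rfl⟩
    ext y
    constructor
    · rintro ⟨k, hk, rfl⟩; exact ⟨k * g, Y.mul_mem hk hg, by group⟩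
    · rintro ⟨k, hk, rfl⟩; exact ⟨k * g⁻¹, Y.mul_mem hk (Y.inv_mem hg), by group⟩
  have key : ∀ B ∈ X.image f, ∃ x ∈ X, f x = B := fun B hB => mem_image.1 hB
  choose! s hs hs' using key
  refine ⟨(X.image f).image s, fun x hx => ?_, (Nat.mul_le_mul_left n card_image_le).trans
    (mul_card_image_le_card _ _ fun B hB => ?_), fun x hx => ?_⟩
  · obtain ⟨B, hB, rfl⟩ := mem_image.1 hx
    exact hs B hB
  · obtain ⟨x, hx, rfl⟩ := mem_image.1 hB
    obtain ⟨T, hT, hn, hT'⟩ := h x hx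
    exact hn.trans (card_le_card fun y hy => mem_filter.2 ⟨hT hy, hf x y (hT' y hy)⟩)
  · have h1 := mem_image_of_mem f hx
    have h2 : s (f x) ∈ f (s (f x)) := ⟨1, Y.one_mem, by simp⟩
    rw [hs' _ h1] at h2
    obtain ⟨g, hg, e⟩ := h2
    exact ⟨g, hg, e ▸ mem_image_of_mem s h1⟩

theorem mem_zpowers_pow {s k e : ℕ} {u : G} (hu : u ^ s ^ k = 1) (he : e.Coprime s) :
    u ∈ zpowers (u ^ e) := by
  obtain ⟨j, hj⟩ := exists_pow_eq_self_of_coprime (x := u)
    ((he.pow_right k).coprime_dvd_right (orderOf_dvd_of_pow_eq_one hu))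
  have := npow_mem_zpowers (u ^ e) j
  rwa [hj] at this

theorem conj_finset {s k : ℕ} (hs : s.Prime) {u a : G} (hu : u ^ s ^ k = 1) (h : u * a ≠ a * u) :
    ∃ T : Finset G, s ≤ T.card ∧ ∀ y ∈ T, ∃ i : ℕ, u ^ i * a * (u ^ i)⁻¹ = y := by
  refine ⟨(range s).image fun i => u ^ i * a * (u ^ i)⁻¹, ?_, fun y hy => ?_⟩
  · rw [card_image_of_injOn, card_range]
    have key : ∀ i j, i < j → j < s → u ^ i * a * (u ^ i)⁻¹ ≠ u ^ j * a * (u ^ j)⁻¹ := by
      intro i j hij hj e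
      obtain ⟨d, rfl⟩ := Nat.exists_eq_add_of_lt hij
      have h1 : u ^ (d + 1) ∈ centralizer {a} := by
        rw [mem_centralizer_singleton_iff]
        rw [add_assoc, pow_add] at e
        calc _ = (u ^ i)⁻¹ * (u ^ i * u ^ (d + 1) * a * (u ^ i * u ^ (d + 1))⁻¹) *
            (u ^ i * u ^ (d + 1)) := by group
          _ = _ := by rw [← e]; group
      exact h (mem_centralizer_singleton_iff.1 (zpowers_le.2 h1 (mem_zpowers_pow hu
        (Nat.coprime_of_lt_prime d.succ_ne_zero (by omega) hs).symm)))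
    intro i hi j hj e
    by_contra hne
    rcases Nat.lt_or_gt_of_ne hne with h | h
    exacts [key i j h (by simpa using hj) e, key j i h (by simpa using hi) e.symm]
  · obtain ⟨i, -, rfl⟩ := mem_image.1 hy
    exact ⟨i, rfl⟩

theorem nilp_of_comm {H : Type*} [Group H] (h : IsMulCommutative H) : Group.IsNilpotent H :=
  @CommGroup.isNilpotent H { (inferInstance : Group H) with mul_comm := h.is_comm.comm }

/-- `A` is an abelian Hall `σ`-subgroup. -/
structure AH (σ : Set ℕ) (A : Subgroup G) : Prop where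
  comm : IsMulCommutative A
  pi : IsPiNum σ (Nat.card A)
  idx : IsPiNum σᶜ A.index

variable [Finite G] {σ : Set ℕ} {A : Subgroup G}

theorem AH.conj (h : AH σ A) {X B : Subgroup G} (hA : A ≤ X) (hB : B ≤ X)
    (hb : IsPiNum σ (Nat.card B)) : ∃ x ∈ X, B ≤ MulAut.conj x • A := by
  refine SolvStruct.wielandt_nilpotent_hall hA hB (nilp_of_comm h.comm)
    (h.pi.coprime (h.idx.of_dvd (relIndex_dvd_index_of_le hA))) fun r hr hd => ?_
  have := (hd.trans (card_subgroup_dvd_card B))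
  rw [← A.card_mul_index] at this
  exact ((Nat.Prime.dvd_mul hr).1 this).resolve_right fun h' => h.idx r hr h' (hb r hr hd)

theorem AH.mem_normalizer (h : AH σ A) {X : Subgroup G} (hA : A ≤ X) {t : G}
    (ht : ∀ a ∈ A, t * a * t⁻¹ ∈ X) : ∃ x ∈ X, x * t ∈ normalizer (A : Set G) := by
  obtain ⟨x, hx, h1⟩ := h.conj hA (conj_smul_le_iff.2 ht) (by rw [card_conj_smul]; exact h.pi)
  refine ⟨x⁻¹, X.inv_mem hx, mem_normalizer_iff_conj_smul_eq.2 (eq_of_le_of_card_ge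
    (conj_smul_le_iff.2 fun a ha => ?_) (by rw [card_conj_smul]))⟩
  simpa [mul_assoc] using mem_conj_smul_iff.1 (h1 (conj_mem_conj_smul ha))

theorem AH.orbit_bound (h : AH σ A) {X : Subgroup G} (hA : A ≤ X) {q n : ℕ}
    (hq : ∀ r ∈ σ, q ≤ r) {u : G} (hc : u ∉ centralizer (A : Set G))
    (hn : ∀ a ∈ A, u * a ≠ a * u → ∃ T : Finset G, n + 1 ≤ T.card ∧
      ∀ y ∈ T, y ∈ A ∧ u * y ≠ y * u ∧ ∃ g ∈ X, g * a * g⁻¹ = y) :
    (n + 1) * q * kPi σ X ≤ (n + q) * Nat.card A := by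
  have := Fintype.ofFinite G
  have hle : A ⊓ centralizer {u} ≤ A := inf_le_left
  have h1 : q * Nat.card (A ⊓ centralizer {u} : Subgroup G) ≤ Nat.card A := by
    rw [← card_mul_relIndex_of_le hle, mul_comm]
    refine Nat.mul_le_mul_left _ ?_
    have h2 : (A ⊓ centralizer {u}).relIndex A ≠ 1 := fun e => hc fun a ha =>
      mem_centralizer_singleton_iff.1 (relIndex_eq_one.1 e ha).2
    obtain ⟨r, hr, hd⟩ := Nat.exists_prime_and_dvd h2
    exact (hq r (h.pi r hr (hd.trans (relIndex_dvd_card _ _)))).trans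
      (Nat.le_of_dvd (Nat.pos_of_dvd_of_pos (relIndex_dvd_card _ _) Nat.card_pos) hd)
  obtain ⟨R, -, h2, h3⟩ := exists_reps X (E A \ E (A ⊓ centralizer {u})) (n + 1) fun a ha => by
    simp only [mem_sdiff, mem_E, Subgroup.mem_inf, not_and, mem_centralizer_singleton_iff] at ha
    obtain ⟨T, h1, h2⟩ := hn a ha.1 fun e => ha.2 ha.1 e.symm
    refine ⟨T, fun y hy => ?_, h1, fun y hy => (h2 y hy).2.2⟩
    simp only [mem_sdiff, mem_E, Subgroup.mem_inf, not_and, mem_centralizer_singleton_iff]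
    exact ⟨(h2 y hy).1, fun _ e => (h2 y hy).2.1 e.symm⟩
  have h4 : kPi σ X ≤ (E (A ⊓ centralizer {u}) ∪ R).card := kPi_le_of_cover X _ fun x hx hx' => by
    obtain ⟨g, hg, h5⟩ := h.conj hA (zpowers_le.2 hx) (by rwa [Nat.card_zpowers])
    have h6 := mem_conj_smul_iff.1 (h5 (mem_zpowers x))
    by_cases h7 : g⁻¹ * x * g ∈ A ⊓ centralizer {u}
    · exact ⟨g⁻¹, X.inv_mem hg, mem_union_left _ (by simpa using h7)⟩
    · obtain ⟨k, hk, h8⟩ := h3 _ (mem_sdiff.2 ⟨mem_E.2 h6, mt mem_E.1 h7⟩)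
      exact ⟨k * g⁻¹, X.mul_mem hk (X.inv_mem hg), mem_union_right _ (by simpa [mul_assoc] using h8)⟩
  have h5 := card_sdiff_add_card_eq_card (s := E (A ⊓ centralizer {u})) (t := E A)
    fun a ha => mem_E.2 (hle (mem_E.1 ha))
  have h6 := h4.trans (card_union_le _ _)
  rw [card_E, card_E] at h5
  rw [card_E] at h6
  nlinarith [Nat.mul_le_mul_left ((n + 1) * q) h6, Nat.mul_le_mul_left q h2,
    Nat.mul_le_mul_left n h1]

end CfsgLib.KPi
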