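import Cfsg.Agent.Lib.KPi.Count
import Cfsg.Agent.S0079

/-! The local analysis when `N(A)` does not contain a Sylow `s`-subgroup. -/

set_option autoImplicit false
open Finset Subgroup
open scoped Classical Pointwise

namespace CfsgLib.KPi

open Coprime Fgs KPerm

variable {G : Type*} [Group G]

theorem mul_pow_mem {Y : Subgroup G} {x t : G} (hx : x ∈ Y) (ht : t ∈ normalizer (Y : Set G))
    (e : ℕ) : ∃ y ∈ Y, (x * t) ^ e = y * t ^ e := by
  induction e with
  | zero => exact ⟨1, Y.one_mem, by simp⟩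
  | succ e ih =>
    obtain ⟨y, hy, h⟩ := ih
    refine ⟨y * (t ^ e * x * (t ^ e)⁻¹), Y.mul_mem hy
      ((mem_normalizer_iff.1 (pow_mem ht e) x).1 hx), ?_⟩
    rw [pow_succ, h, pow_succ]; group

theorem mid [Finite G] {s : ℕ} (hs : s.Prime) {P₀ P U : Subgroup G}
    (hc : Nat.card P = s * Nat.card P₀) (h1 : P₀ ≤ U) (h2 : U ≤ P) : U = P₀ ∨ U = P := by
  obtain ⟨a, ha⟩ := card_dvd_of_le h1
  obtain ⟨b, hb⟩ := card_dvd_of_le h2
  have h3 : a * b = s := Nat.eq_of_mul_eq_mul_left (Nat.card_pos (α := P₀))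
    (by rw [← mul_assoc, ← ha, ← hb, hc, mul_comm])
  rcases (Nat.dvd_prime hs).1 (Dvd.intro _ h3) with h | h
  · exact Or.inl (eq_of_le_of_card_ge h1 (by rw [ha, h, mul_one])).symm
  · exact Or.inr (eq_of_le_of_card_ge h2 (by rw [ha, h, hc, mul_comm]))

theorem le_norm [Finite G] {s : ℕ} (hs : s.Prime) {P₀ P : Subgroup G} (hP : IsPGroup s P)
    (hle : P₀ ≤ P) (hc : Nat.card P = s * Nat.card P₀) : P ≤ normalizer (P₀ : Set G) := by
  have := Fact.mk hs
  refine (normal_subgroupOf_iff_le_normalizer hle).1 (PGroup.normal_of_index_eq_prime hP ?_)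
  exact Nat.eq_of_mul_eq_mul_left (Nat.card_pos (α := P₀))
    ((card_mul_relIndex_of_le hle).trans (hc.trans (mul_comm _ _)))

theorem exists_compl [Finite G] {D H : Subgroup G} (hle : H ≤ D) {N : Subgroup D} (hN : N.Normal)
    (h : N.IsComplement' (H.subgroupOf D)) : ∃ M ≤ D, D ≤ normalizer (M : Set G) ∧
      M.relIndex D = Nat.card H ∧ Nat.card M = H.relIndex D := by
  refine ⟨N.map D.subtype, map_subtype_le _, ?_, ?_, ?_⟩
  · rw [← normal_subgroupOf_iff_le_normalizer (map_subtype_le _)]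
    rwa [subgroupOf, comap_map_eq_self_of_injective D.subtype_injective]
  · rw [relIndex_map_subtype, h.symm.index_eq_card, Nat.card_congr (subgroupOfEquivOfLe hle).toEquiv]
  · rw [card_map_of_injective D.subtype_injective, ← h.index_eq_card]; rfl

/-- The configuration of the hard case. -/
structure C2 (σ : Set ℕ) (s : ℕ) (A P₀ P : Subgroup G) : Prop where
  hs : s.Prime
  hσ : ∀ r ∈ σ, s < r
  ah : AH σ A
  cent : P₀ ≤ centralizer (A : Set G)
  le : P₀ ≤ P
  pP : IsPGroup s P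
  iP : ¬ s ∣ P.index
  card : Nat.card P = s * Nat.card P₀
  max : ∀ U : Subgroup G, IsPGroup s U → P₀ ≤ U → U ≤ normalizer (A : Set G) → U = P₀

namespace C2

variable [Finite G] {σ : Set ℕ} {s : ℕ} {A P₀ P : Subgroup G} (h : C2 σ s A P₀ P)
include h

theorem norm : P ≤ normalizer (P₀ : Set G) := le_norm h.hs h.pP h.le h.card

omit [Finite G] in
theorem AD : A ≤ centralizer (P₀ : Set G) := le_centralizer_iff.1 h.cent

omit [Finite G] in
theorem p0 : IsPGroup s P₀ := h.pP.to_le h.le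

omit [Finite G] in
theorem cop : (Nat.card A).Coprime s :=
  ((h.hs.coprime_iff_not_dvd).2 fun hd => lt_irrefl _ (h.hσ s (h.ah.pi s h.hs hd))).symm

theorem frat {Y : Subgroup G} (hA : A ≤ Y) (hY : Y ≤ centralizer (P₀ : Set G)) {t : G} (ht : t ∈ P)
    (ht0 : t ∉ P₀) (htY : t ∈ normalizer (Y : Set G)) : ∃ y ∈ Y, y ∈ P ∧ y ∉ P₀ := by
  obtain ⟨x, hx, h1⟩ := h.ah.mem_normalizer hA fun a ha => (mem_normalizer_iff.1 htY a).1 (hA ha)
  have h2 : x * t ∈ normalizer (P₀ : Set G) :=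
    mul_mem (centralizer_le_normalizer _ (hY hx)) (h.norm ht)
  obtain ⟨y, hy⟩ := Block.exists_isPPart h.hs (x * t)
  have hyk := Block.isPPart_mem_zpowers h.hs hy
  obtain ⟨z, hyz, hc, ⟨k, hk⟩, hz⟩ := hy
  have h3 : y ∈ P₀ := by
    rw [← h.max (P₀ ⊔ zpowers y) (h.p0.to_sup_of_normal_left'
      (Invol.isPGroup_zpowers_of_pow_eq_one (hk ▸ pow_orderOf_eq_one y))
      (zpowers_le.2 (zpowers_le.2 h2 hyk))) le_sup_left
      (sup_le (h.cent.trans (centralizer_le_normalizer _)) (zpowers_le.2 (zpowers_le.2 h1 hyk)))]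
    exact mem_sup_right (mem_zpowers y)
  obtain ⟨w, hw, e⟩ := mul_pow_mem hx htY (orderOf z)
  have h4 : w * t ^ orderOf z ∈ P₀ := by
    rw [← e, ← hyz, hc.mul_pow, pow_orderOf_eq_one, mul_one]; exact pow_mem h3 _
  refine ⟨w, hw, by simpa using mul_mem (h.le h4) (inv_mem (pow_mem ht (orderOf z))), fun h5 => ?_⟩
  obtain ⟨j, hj⟩ := h.pP ⟨t, ht⟩
  exact ht0 (zpowers_le.2 (by simpa using mul_mem (inv_mem h5) h4)
    (mem_zpowers_pow (congrArg Subtype.val hj) ((h.hs.coprime_iff_not_dvd).2 hz).symm))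

theorem exists_t : ∃ t ∈ centralizer (P₀ : Set G), t ∈ P ∧ t ∉ P₀ := by
  have : ¬ P ≤ P₀ := fun h1 => by
    have h2 := card_le_of_le h1
    have h3 := h.hs.two_le
    have h4 := Nat.card_pos (α := P₀)
    rw [h.card] at h2
    nlinarith
  obtain ⟨t, ht, ht0⟩ := SetLike.not_le_iff_exists.1 this
  exact h.frat h.AD le_rfl ht ht0 (le_normalizer_centralizer h.norm ht)

theorem sup_eq : P₀ ⊔ P ⊓ centralizer (P₀ : Set G) = P := by
  obtain ⟨t, h1, h2, h3⟩ := h.exists_t
  exact (mid h.hs h.card le_sup_left (sup_le h.le inf_le_left)).resolve_left fun e =>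
    h3 (e ▸ mem_sup_right ⟨h2, h1⟩)

theorem sylD : ¬ s ∣ (P ⊓ centralizer (P₀ : Set G)).relIndex (centralizer (P₀ : Set G)) := by
  have := Fact.mk h.hs
  obtain ⟨S, h1, h2, h3, h4⟩ := exists_le_sylow_relIndex (inf_le_right : P ⊓ _ ≤ _)
    (h.pP.to_le (inf_le_left : P ⊓ centralizer (P₀ : Set G) ≤ P))
  have h5 : P₀ ⊔ S = P := eq_of_sylow_le (K := ⊤) h.pP (by rw [relIndex_top_right]; exact h.iP)
    (h.sup_eq.ge.trans (sup_le_sup_left h1 _)) le_top
    (h.p0.to_sup_of_normal_left' h3 (h2.trans (centralizer_le_normalizer _)))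
  rwa [le_antisymm h1 (le_inf (h5 ▸ le_sup_right) h2)]

theorem exists_u : ∃ u ∈ centralizer (P₀ : Set G), ∀ x ∈ P, u * x * u⁻¹ ∈ P ∧
    (x ∉ P₀ → u * x ≠ x * u) := by
  have := Fact.mk h.hs
  set D := centralizer (P₀ : Set G)
  have hp : IsPGroup s (P ⊓ D : Subgroup G) := h.pP.to_le inf_le_left
  by_cases h1 : ∀ u ∈ D, u ∈ normalizer ((P ⊓ D : Subgroup G) : Set G) →
      u ∈ centralizer ((P ⊓ D : Subgroup G) : Set G)
  · exfalso
    obtain ⟨S, hS⟩ := exists_sylow_map_eq inf_le_right hp h.sylD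
    have hS' : (S : Subgroup D) = (P ⊓ D).subgroupOf D := by
      rw [← hS, subgroupOf, comap_map_eq_self_of_injective D.subtype_injective]
    have h2 : normalizer ((S : Subgroup D) : Set D) ≤ centralizer ((S : Subgroup D) : Set D) := by
      intro u hu x hx
      rw [hS', ← subgroupOf_normalizer_eq inf_le_right] at hu
      rw [hS'] at hx
      exact Subtype.ext (h1 u u.2 hu x hx)
    obtain ⟨N, hN, h3⟩ : ∃ N : Subgroup D, N.Normal ∧ N.IsComplement' S :=
      ⟨_, inferInstance, MonoidHom.ker_transferSylow_isComplement' S h2⟩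
    rw [hS'] at h3
    obtain ⟨M, hMD, hDM, h4, h5⟩ := exists_compl inf_le_right hN h3
    obtain ⟨t, t1, t2, t3⟩ := h.exists_t
    obtain ⟨j, hj⟩ := hp.exists_card_eq
    obtain ⟨y, y1, y2, y3⟩ := h.frat (le_of_coprime_relIndex hDM h.AD
      (by rw [h4, hj]; exact h.cop.pow_right j)) hMD t2 t3 (hDM t1)
    refine y3 (eq_one_of_mem_of_coprime (K := P ⊓ D) ?_ y1 ⟨y2, hMD y1⟩ ▸ P₀.one_mem)
    rw [h5, hj]
    exact (((h.hs.coprime_iff_not_dvd).2 h.sylD).symm).pow_right j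
  · push Not at h1
    obtain ⟨u, u1, u2, u3⟩ := h1
    have h2 : zpowers u ≤ normalizer (P : Set G) := h.sup_eq ▸ le_normalizer_sup
      (zpowers_le.2 (centralizer_le_normalizer _ u1)) (zpowers_le.2 u2)
    refine ⟨u, u1, fun x hx => ⟨(mem_normalizer_iff.1 (h2 (mem_zpowers u)) x).1 hx,
      fun h3 e => ?_⟩⟩
    rcases mid h.hs h.card (le_inf h.le fun y hy => mem_centralizer_singleton_iff.2 (u1 y hy))
      (inf_le_left : P ⊓ centralizer {u} ≤ P) with h4 | h4
    · exact h3 (h4 ▸ ⟨hx, mem_centralizer_singleton_iff.2 e.symm⟩)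
    · exact u3 fun y hy => mem_centralizer_singleton_iff.1 (h4.ge hy.1).2

theorem le_normA {U : Subgroup G} (hU : IsPGroup s U) (h0 : P₀ ≤ U)
    (hA : A ≤ normalizer (U : Set G)) : U ≤ normalizer (A : Set G) := by
  have := Fact.mk h.hs
  have := Fintype.ofFinite G
  set N := normalizer (A : Set G)
  let a₀ : G ⧸ N := (1 : G)
  have hfix : ∀ g : G, g • a₀ = a₀ ↔ g ∈ N := fun g => by
    rw [MulAction.Quotient.smul_coe, QuotientGroup.eq]; simp
  have hI : Inv A (orb U a₀) := fun a ha b hb => by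
    obtain ⟨u, hu, rfl⟩ := mem_orb.1 hb
    refine mem_orb.2 ⟨a * u * a⁻¹, (mem_normalizer_iff.1 (hA ha) u).1 hu, ?_⟩
    rw [mul_smul, mul_smul, (hfix _).2 (inv_mem (le_normalizer ha))]
  have h1 : (orb U a₀).card ≤ s := by
    obtain ⟨g, hg⟩ := exists_conj_smul_le_sylow (K := ⊤) le_top h.pP
      (by rw [relIndex_top_right]; exact h.iP) le_top hU
    have h2 := card_le_of_le hg.2
    have h3 := card_orb_mul U a₀
    have h4 : P₀ ≤ U ⊓ fx G {a₀} := le_inf h0 fun x hx => mem_fx.2 (by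
      simpa using (hfix x).2 (centralizer_le_normalizer _ (h.cent hx)))
    rw [card_E, card_E] at h3
    rw [card_conj_smul, h.card, ← h3] at h2
    exact Nat.le_of_mul_le_mul_right ((Nat.mul_le_mul_left _ (card_le_of_le h4)).trans h2)
      Nat.card_pos
  have h2 := ri_mul A (orb U a₀)
  have h3 : ri A (orb U a₀) = 1 := Nat.eq_one_iff_not_exists_prime_dvd.2 fun r hr hd => by
    have h4 := h.hσ r (h.ah.pi r hr (hd.trans ⟨_, by rw [← card_E, h2]⟩))
    have h5 := (hr.dvd_factorial).1 (hd.trans (ri_dvd hI))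
    omega
  rw [h3, one_mul, card_E, card_E] at h2
  have h4 := (eq_of_le_of_card_ge inf_le_left h2.ge).ge
  intro u hu
  have h5 : MulAut.conj u⁻¹ • A ≤ A := le_of_coprime_relIndex le_rfl
    (conj_smul_le_iff.2 fun a ha => (hfix _).1 (by
      rw [inv_inv, mul_smul, mul_smul, mem_fx.1 (h4 ha).2 _ (mem_orb.2 ⟨u, hu, rfl⟩), inv_smul_smul]))
    (by rw [card_conj_smul]
        exact h.ah.pi.coprime (h.ah.idx.of_dvd (relIndex_dvd_index_of_le le_normalizer)))
  simpa using inv_mem (mem_normalizer_iff_conj_smul_eq.2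
    (eq_of_le_of_card_ge h5 (by rw [card_conj_smul])))

theorem exists_v : ∃ v ∈ centralizer (P₀ : Set G), v ∈ normalizer (A : Set G) ∧
    v ∉ centralizer (A : Set G) := by
  have := Fact.mk h.hs
  set D := centralizer (P₀ : Set G)
  have hcomm := PGroup.isMulCommutative_iff.1 h.ah.comm
  by_cases h1 : ∀ a ∈ A, ∀ g ∈ D, g * a * g⁻¹ ∈ A → g * a * g⁻¹ = a
  · exfalso
    have hcop : (Nat.card A).Coprime (A.relIndex D) :=
      h.ah.pi.coprime (h.ah.idx.of_dvd (relIndex_dvd_index_of_le h.AD))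
    have e := subgroupOfEquivOfLe h.AD
    obtain ⟨N, hN, h2⟩ := (Cfsg.Agent.S0079.result (A.subgroupOf D)
      (have := nilp_of_comm h.ah.comm; Group.nilpotent_of_mulEquiv e.symm)
      (by rw [Nat.card_congr e.toEquiv]; exact hcop)).2 fun x hx y hy ⟨g, hg⟩ =>
        ⟨1, one_mem _, by
          have := h1 x hx g g.2 (by rw [← hg] at hy; exact hy)
          rw [one_mul, inv_one, mul_one, ← hg]
          exact Subtype.ext this.symm⟩
    obtain ⟨M, hMD, hDM, h4, h5⟩ := exists_compl h.AD hN h2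
    obtain ⟨S, s1, s2, s3, s4⟩ := exists_invariant_sylow' s (h.AD.trans hDM) (h5 ▸ hcop)
      (Or.inl (have := nilp_of_comm h.ah.comm; inferInstance))
    have hU := h.p0.to_sup_of_normal_left' s2 ((s1.trans hMD).trans (centralizer_le_normalizer _))
    have h6 := h.max _ hU le_sup_left (h.le_normA hU le_sup_left
      (le_normalizer_sup (h.AD.trans (centralizer_le_normalizer _)) s4))
    obtain ⟨t, t1, t2, t3⟩ := h.exists_t
    have h7 : S ≤ P₀ := h6 ▸ le_sup_right
    have h8 : S ⊔ zpowers t = S := eq_of_sylow_le (K := D) s2 (by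
      rw [← relIndex_mul_relIndex S M D s1 hMD, h4, h.hs.dvd_mul, not_or]
      exact ⟨s3, (h.hs.coprime_iff_not_dvd).1 h.cop.symm⟩) le_sup_left
      (sup_le (s1.trans hMD) (zpowers_le.2 t1)) (s2.to_sup_of_normal_left'
        (h.pP.to_le (zpowers_le.2 t2)) (zpowers_le.2 (centralizer_le_normalizer _
          (centralizer_le h7 t1))))
    exact t3 (h7 (h8 ▸ mem_sup_right (mem_zpowers t)))
  · push Not at h1
    obtain ⟨a, ha, g, hg, h2, h3⟩ := h1
    obtain ⟨c, hc, h4⟩ := h.ah.mem_normalizer (X := D ⊓ centralizer {g * a * g⁻¹}) (t := g)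
      (le_inf h.AD fun b hb => mem_centralizer_singleton_iff.2 (hcomm b hb _ h2))
      fun b hb => ⟨D.mul_mem (D.mul_mem hg (h.AD hb)) (D.inv_mem hg), mem_centralizer_singleton_iff.2 (by
        calc _ = g * (b * a) * g⁻¹ := by group
          _ = _ := by rw [hcomm b hb a ha]; group)⟩
    refine ⟨c * g, mul_mem hc.1 hg, h4, fun h5 => h3 ?_⟩
    have h6 := mem_centralizer_singleton_iff.1 hc.2
    have h7 := h5 a ha
    calc _ = c * (g * a * g⁻¹) * c⁻¹ := by rw [h6]; group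
      _ = (c * g * a) * (c * g)⁻¹ := by group
      _ = a := by rw [← h7]; group

end C2

end CfsgLib.KPi
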