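import Cfsg.Agent.Lib.KPi.Local
import Cfsg.Agent.Lib.AutOrb.Basic

/-! Many classes of `π`-elements force a nilpotent Hall `π`-subgroup. -/

set_option autoImplicit false
open Finset Subgroup
open scoped Classical Pointwise commutatorElement

namespace CfsgLib.KPi

open Coprime Fgs KPerm

universe u

/-- All `r`-subgroups, `r ∈ σ`, are abelian. -/
def AbS (σ : Set ℕ) (G : Type*) [Group G] : Prop :=
  ∀ r ∈ σ, ∀ R : Subgroup G, IsPGroup r R → IsMulCommutative R

theorem AbS.sub {σ : Set ℕ} {G : Type*} [Group G] (h : AbS σ G) (X : Subgroup G) : AbS σ X :=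
  fun r hr _ hR => PGroup.isMulCommutative_iff.2 fun _ ha _ hb => Subtype.ext
    (PGroup.isMulCommutative_iff.1 (h r hr _ (hR.map X.subtype)) _ (mem_map_of_mem _ ha) _
      (mem_map_of_mem _ hb))

/-- The inductive statement. -/
def MM (σ : Set ℕ) : Prop := ∀ q, (∀ r ∈ σ, q ≤ r) → ∀ (G : Type u) [Group G] [Finite G],
  AbS σ G → ∀ m k, Nat.card G = m * k → IsPiNum σ m → IsPiNum σᶜ k → m < q * kPi σ G →
    ∃ A : Subgroup G, Nat.card A = m ∧ IsMulCommutative A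

variable {G : Type u} [Group G] [Finite G] {σ : Set ℕ} {A : Subgroup G}

theorem AH.k_le (h : AH σ A) (X : Subgroup G) : kPi σ X ≤ Nat.card A :=
  kPi_le_of_dvd Nat.card_pos.ne' (A.card_mul_index ▸ card_subgroup_dvd_card X) h.idx

theorem AH.bad (h : AH σ A) (hM : MM.{u} σ) (hA : AbS σ G) {q : ℕ} (hq : ∀ r ∈ σ, q ≤ r)
    (X : Subgroup G) : q * kPi σ X ≤ Nat.card A ∨ ∃ x : G, MulAut.conj x • A ≤ X := by
  refine or_iff_not_imp_left.2 fun h1 => ?_
  obtain ⟨a, b, e, ha, hb⟩ := exists_piNum_mul σ (Nat.card_pos (α := X)).ne'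
  obtain ⟨c, hc⟩ : a ∣ Nat.card A := (ha.coprime h.idx).dvd_of_dvd_mul_right
    ((Dvd.intro _ e.symm).trans (A.card_mul_index ▸ card_subgroup_dvd_card X))
  have h2 := kPi_le e ha hb
  have h3 : c = 1 := Nat.eq_one_iff_not_exists_prime_dvd.2 fun r hr hd => h1 (by
    have h4 := (hq r (h.pi r hr (hd.trans (Dvd.intro_left _ hc.symm)))).trans (Nat.le_of_dvd
      (Nat.pos_of_mul_pos_left (hc ▸ Nat.card_pos)) hd)
    rw [hc, mul_comm]
    exact Nat.mul_le_mul h2 h4)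
  rw [h3, mul_one] at hc
  obtain ⟨B, hB, -⟩ := hM q hq X (hA.sub X) a b e ha hb (hc ▸ not_le.1 h1)
  have h4 : Nat.card (B.map X.subtype) = Nat.card A := by
    rw [card_map_of_injective X.subtype_injective, hB, hc]
  obtain ⟨x, -, hx⟩ := h.conj (B := B.map X.subtype) le_top le_top (h4 ▸ h.pi)
  exact ⟨x, eq_of_le_of_card_ge hx (by rw [card_conj_smul, h4]) ▸ map_subtype_le B⟩

theorem isPGroup_of_piNum {s : ℕ} {z : G} (hz : IsPiNum {s} (orderOf z)) :
    IsPGroup s (zpowers z) := IsPGroup.of_card ((Nat.card_zpowers z).trans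
  (Nat.eq_prime_pow_of_unique_prime_dvd (orderOf_pos z).ne' fun hr hd => hz _ hr hd))

theorem cover {π : Set ℕ} {s : ℕ} (hs : s.Prime) (hσ : ∀ r ∈ σ, s < r) (h : AH σ A) (hM : MM.{u} σ)
    (hA : AbS σ G) (hπ : ∀ r, r.Prime → r ∣ Nat.card G → r ∈ π → r ∉ ({s} : Set ℕ) → r ∈ σ)
    {P₀ P : Subgroup G} (h0 : P₀ ≤ centralizer (A : Set G))
    (hi0 : ¬ s ∣ P₀.relIndex (centralizer (A : Set G))) (hle : P₀ ≤ P) (hP : IsPGroup s P)
    (hi : ¬ s ∣ P.index) {R₀ R₁ : Finset G} (hR₀ : ∀ x ∈ P₀, ∃ g, g * x * g⁻¹ ∈ R₀)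
    (hR₁ : ∀ x ∈ P, x ∉ P₀ → ∃ g, g * x * g⁻¹ ∈ R₁) : (s + 1) * kPi π G ≤
      (s + 1) * ∑ z ∈ R₀, kPi σ (centralizer {z}) + R₁.card * Nat.card A := by
  have := Fact.mk hs
  have key : ∀ z : G, IsPGroup s (zpowers z) → (∃ x : G, MulAut.conj x • A ≤ centralizer {z}) →
      ∃ g, g * z * g⁻¹ ∈ R₀ := fun z hz ⟨x, hx⟩ => by
    have h1 : x⁻¹ * z * x⁻¹⁻¹ ∈ centralizer (A : Set G) := fun a ha => by
      have := mem_centralizer_singleton_iff.1 (hx (conj_mem_conj_smul ha))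
      calc _ = x⁻¹ * (x * a * x⁻¹ * z) * x := by group
        _ = _ := by rw [this]; group
    obtain ⟨j, hj⟩ := hz ⟨z, mem_zpowers z⟩
    obtain ⟨c, -, hc⟩ := exists_conj_smul_le_sylow h0 (hP.to_le hle) hi0 (zpowers_le.2 h1)
      (Invol.isPGroup_zpowers_of_pow_eq_one (k := j) (by
        rw [conj_pow, show z ^ s ^ j = 1 from congrArg Subtype.val hj]; simp))
    obtain ⟨g, hg⟩ := hR₀ _ (mem_conj_smul_iff.1 (hc (mem_zpowers _)))
    exact ⟨g * c⁻¹ * x⁻¹, by simpa [mul_assoc] using hg⟩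
  let B := R₁.filter fun z => (s + 1) * kPi σ (centralizer {z}) ≤ Nat.card A
  have h1 := kPi_le_sum hπ (R₀ ∪ B) fun z hz => by
    have hz' := isPGroup_of_piNum hz
    obtain ⟨c, -, hc⟩ := exists_conj_smul_le_sylow (K := ⊤) le_top hP
      (by rw [relIndex_top_right]; exact hi) le_top hz'
    have h2 := mem_conj_smul_iff.1 (hc (mem_zpowers z))
    by_cases h3 : c⁻¹ * z * c ∈ P₀
    · obtain ⟨g, hg⟩ := hR₀ _ h3
      exact ⟨g * c⁻¹, mem_union_left _ (by simpa [mul_assoc] using hg)⟩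
    obtain ⟨g, hg⟩ := hR₁ _ h2 h3
    rcases h.bad hM hA (q := s + 1) hσ (centralizer {g * (c⁻¹ * z * c) * g⁻¹}) with h4 | h4
    · have h5 : g * (c⁻¹ * z * c) * g⁻¹ ∈ B := mem_filter.2 ⟨hg, h4⟩
      exact ⟨g * c⁻¹, mem_union_right _ (by simpa only [mul_inv_rev, inv_inv, mul_assoc] using h5)⟩
    · obtain ⟨j, hj⟩ := hP ⟨_, h2⟩
      obtain ⟨k, hk⟩ := key _ (Invol.isPGroup_zpowers_of_pow_eq_one (k := j) (by
        rw [conj_pow, show (c⁻¹ * z * c) ^ s ^ j = 1 from congrArg Subtype.val hj]; simp)) h4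
      exact ⟨k * g * c⁻¹, mem_union_left _ (by simpa [mul_assoc] using hk)⟩
  have h2 := sum_union_inter (s₁ := R₀) (s₂ := B) (f := fun z => kPi σ (centralizer {z}))
  have h3 : (s + 1) * ∑ z ∈ B, kPi σ (centralizer {z}) ≤ R₁.card * Nat.card A := by
    rw [mul_sum]
    exact (sum_le_card_nsmul _ _ _ fun z hz => (mem_filter.1 hz).2).trans
      (Nat.mul_le_mul_right _ (card_filter_le _ _))
  nlinarith [Nat.zero_le (∑ z ∈ R₀ ∩ B, kPi σ (centralizer {z}))]

theorem step {π : Set ℕ} {s : ℕ} [hs' : Fact s.Prime] (hσ : ∀ r ∈ σ, s < r) (hM : MM.{u} σ)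
    (hA : AbS σ G) (hπ : ∀ r, r.Prime → r ∣ Nat.card G → r ∈ π → r ∉ ({s} : Set ℕ) → r ∈ σ)
    {m k : ℕ} (e : Nat.card G = m * k) (hm : IsPiNum σ m) (hk : IsPiNum σᶜ k) (S : Sylow s G)
    (hlt : m * Nat.card S < s * kPi π G) : ∃ A P : Subgroup G, Nat.card A = m ∧
      IsMulCommutative A ∧ IsPGroup s P ∧ ¬ s ∣ P.index ∧ P ≤ centralizer (A : Set G) := by
  have hs := hs'.out
  have := Fintype.ofFinite G
  have h1 : kPi π G ≤ kPi σ G * Nat.card S := kPi_le_mul (σ := {s})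
    (fun r hr hd h1 h2 => by_contra fun h3 => h2 (hπ r hr hd h1 h3)) fun z =>
      kPi_le_of_dvd Nat.card_pos.ne' ((S : Subgroup G).card_mul_index ▸ card_subgroup_dvd_card _)
        fun r _ hd h => S.not_dvd_index (h ▸ hd)
  obtain ⟨A, hAm, hAc⟩ := hM (s + 1) hσ G hA m k e hm hk (by
    have := Nat.lt_of_mul_lt_mul_right (hlt.trans_le (by
      rw [mul_assoc]; exact Nat.mul_le_mul_left s h1 : _ ≤ s * kPi σ G * Nat.card S))
    nlinarith)
  subst hAm
  have h : AH σ A := ⟨hAc, hm, Nat.eq_of_mul_eq_mul_left Nat.card_pos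
    (A.card_mul_index.trans e) ▸ hk⟩
  obtain ⟨P₀, -, h0, p0, i0⟩ := exists_le_sylow_relIndex (K := centralizer (A : Set G)) bot_le
    (IsPGroup.of_bot (p := s))
  obtain ⟨P₁, l1, n1, p1, i1⟩ := exists_le_sylow_relIndex
    (h0.trans (centralizer_le_normalizer _)) p0
  obtain ⟨P, l2, -, pP, iP⟩ := exists_le_sylow_relIndex (K := ⊤) le_top p1
  rw [relIndex_top_right] at iP
  have hle := l1.trans l2
  refine ⟨A, P, rfl, hAc, pP, iP, by_contra fun hne => ?_⟩
  obtain ⟨t, ht, ht0⟩ := SetLike.not_le_iff_exists.1 fun h => hne (le_trans h h0)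
  have hS : Nat.card S = Nat.card P :=
    S.card_eq_multiplicity.trans (pP.toSylow iP).card_eq_multiplicity.symm
  rw [hS] at hlt
  have hcov := fun R₀ R₁ => cover (R₀ := R₀) (R₁ := R₁) hs hσ h hM hA hπ h0 i0 hle pP iP
  have hc := card_sdiff_add_card_eq_card (s := E P₀) (t := E P) fun a ha => mem_E.2 (hle (mem_E.1 ha))
  rw [card_E, card_E] at hc
  have r0 : ∀ x ∈ P₀, ∃ g, g * x * g⁻¹ ∈ E P₀ := fun x hx => ⟨1, by simpa using hx⟩
  have r1 : ∀ x ∈ P, x ∉ P₀ → ∃ g, g * x * g⁻¹ ∈ E P \ E P₀ := fun x hx h => ⟨1, by simp [hx, h]⟩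
  have hs2 := hs.two_le
  have hApos := Nat.card_pos (α := A)
  obtain hbig | hcard : s * (s * Nat.card P₀) ≤ Nat.card P ∨ Nat.card P = s * Nat.card P₀ := by
    obtain ⟨a, ha⟩ := p0.exists_card_eq
    obtain ⟨b, hb⟩ := pP.exists_card_eq
    have h2 : Nat.card P₀ < Nat.card P := lt_of_le_of_ne (card_le_of_le hle) fun h =>
      ht0 (eq_of_le_of_card_ge hle h.ge ▸ ht)
    rw [ha, hb, Nat.pow_lt_pow_iff_right hs.one_lt] at h2
    rw [ha, hb, ← pow_succ', ← pow_succ']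
    rcases Nat.lt_or_ge (a + 1) b with h | h
    exacts [Or.inl (Nat.pow_le_pow_right hs.pos h), Or.inr (by rw [le_antisymm h h2])]
  · have h2 := hcov _ _ r0 r1
    have h3 := sum_le_card_nsmul (E P₀) _ _ fun z _ => h.k_le (centralizer {z})
    rw [card_E, smul_eq_mul] at h3
    nlinarith [Nat.mul_le_mul_left s h2, Nat.mul_le_mul_left (s * (s + 1)) h3,
      Nat.mul_le_mul_left (Nat.card A) hbig, Nat.mul_le_mul_left (s + 1) hlt,
      congrArg (· * (s * Nat.card A)) hc]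
  have hN := le_norm hs pP hle hcard
  have hAz : ∀ z ∈ P₀, A ≤ centralizer {z} := fun z hz a ha =>
    mem_centralizer_singleton_iff.2 (h0 hz a ha)
  rcases mid hs hcard l1 l2 with rfl | rfl
  · have H : C2 σ s A P₁ P := ⟨hs, hσ, h, h0, hle, pP, iP, hcard, fun U hU h1 h2 =>
      eq_of_sylow_le p1 i1 h1 h2 hU⟩
    obtain ⟨u, u1, u2⟩ := H.exists_u
    obtain ⟨v, v1, v2, v3⟩ := H.exists_v
    obtain ⟨R, -, h2, h3⟩ := exists_reps ⊤ (E P \ E P₁) 2 fun x hx => by
      simp only [mem_sdiff, mem_E] at hx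
      refine ⟨{x, u * x * u⁻¹}, insert_subset (by simpa using hx) (by
        simpa using ⟨(u2 x hx.1).1, mt (mem_normalizer_iff.1
          (centralizer_le_normalizer _ u1) x).2 hx.2⟩), (card_pair fun e => (u2 x hx.1).2 hx.2
            (mul_inv_eq_iff_eq_mul.1 e.symm)).ge, fun y hy => ?_⟩
      rcases mem_insert.1 hy with rfl | hy
      exacts [⟨1, trivial, by simp⟩, ⟨u, trivial, (mem_singleton.1 hy).symm⟩]
    have h4 := hcov _ R r0 fun x hx h' => (h3 x (by simp [hx, h'])).imp fun _ h => h.2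
    have h5 : (1 + 1) * (s + 1) * ∑ z ∈ E P₁, kPi σ (centralizer {z}) ≤
        Nat.card P₁ * ((1 + (s + 1)) * Nat.card A) := by
      rw [mul_sum, ← card_E, ← smul_eq_mul]
      refine sum_le_card_nsmul _ _ _ fun z hz => h.orbit_bound (hAz z (mem_E.1 hz)) hσ v3
        fun a ha hne => ⟨{a, v * a * v⁻¹}, (card_pair fun e => hne
          (mul_inv_eq_iff_eq_mul.1 e.symm)).ge, fun y hy => ?_⟩
      rcases mem_insert.1 hy with rfl | hy
      · exact ⟨ha, hne, 1, one_mem _, by simp⟩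
      · rw [mem_singleton.1 hy]
        exact ⟨(mem_normalizer_iff.1 v2 a).1 ha, fun e => hne (by
          rw [inv_mul_cancel_right, mul_assoc v a, mul_right_inj] at e
          exact mul_inv_eq_iff_eq_mul.1 (by rwa [mul_assoc])), v,
          mem_centralizer_singleton_iff.2 (v1 z (mem_E.1 hz)).symm, rfl⟩
    rw [hcard] at hlt hc
    have h6 := Nat.lt_of_mul_lt_mul_left (by rwa [mul_left_comm] at hlt :
      s * (Nat.card A * Nat.card P₁) < _)
    nlinarith [Nat.mul_le_mul_left (Nat.card A) h2, Nat.mul_le_mul_left (s + 1) h6]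
  · have hC : ∀ x ∈ P₁, x ∉ P₀ → x ∉ centralizer (A : Set G) := fun x hx h1 h2 => h1 (by
      rw [← eq_of_sylow_le p0 i0 (le_inf hle h0) inf_le_right (pP.to_le inf_le_left)]
      exact ⟨hx, h2⟩)
    let F := (E P₀).filter fun z => ∃ x ∈ P₁, x ∉ P₀ ∧ x * z = z * x
    obtain ⟨R, -, h2, h3⟩ := exists_reps ⊤ (E P₀ \ F) s fun z hz => by
      simp only [F, mem_sdiff, mem_filter, mem_E, not_and, not_exists] at hz
      obtain ⟨j, hj⟩ := pP ⟨t, ht⟩
      obtain ⟨T, h2, h3⟩ := conj_finset hs (congrArg Subtype.val hj) (hz.2 hz.1 t ht ht0)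
      refine ⟨T, fun y hy => ?_, h2, fun y hy => (h3 y hy).elim fun i h => ⟨_, trivial, h⟩⟩
      obtain ⟨i, rfl⟩ := h3 y hy
      have h4 := pow_mem ht i
      simp only [F, mem_sdiff, mem_filter, mem_E, not_and, not_exists]
      refine ⟨(mem_normalizer_iff.1 (hN h4) z).1 hz.1, fun _ x hx hx0 e => hz.2 hz.1
        ((t ^ i)⁻¹ * x * t ^ i) (mul_mem (mul_mem (inv_mem h4) hx) h4)
        (mt (mem_normalizer_iff''.1 (hN h4) x).2 hx0) ?_⟩
      calc _ = (t ^ i)⁻¹ * (x * (t ^ i * z * (t ^ i)⁻¹)) * t ^ i := by group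
        _ = _ := by rw [e]; group
    have h4 := hcov (F ∪ R) _ (fun x hx => by
      by_cases h : x ∈ F
      · exact ⟨1, mem_union_left _ (by simpa using h)⟩
      · exact (h3 x (mem_sdiff.2 ⟨mem_E.2 hx, h⟩)).imp fun _ h => mem_union_right _ h.2) r1
    have h5 := sum_union_inter (s₁ := F) (s₂ := R) (f := fun z => kPi σ (centralizer {z}))
    have h6 := sum_le_card_nsmul R _ _ fun z _ => h.k_le (centralizer {z})
    have h7 : (s + 1) * ∑ z ∈ F, kPi σ (centralizer {z}) ≤ F.card * (2 * Nat.card A) := by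
      rw [mul_sum, ← smul_eq_mul]
      refine sum_le_card_nsmul _ _ _ fun z hz => ?_
      obtain ⟨hz, x, hx, hx0, e⟩ := mem_filter.1 hz
      obtain ⟨j, hj⟩ := pP ⟨x, hx⟩
      have h8 := h.orbit_bound (n := s - 1) (hAz z (mem_E.1 hz)) hσ (hC x hx hx0) fun a ha hne => by
        obtain ⟨T, h2, h3⟩ := conj_finset hs (congrArg Subtype.val hj) hne
        refine ⟨T, by omega, fun y hy => ?_⟩
        obtain ⟨i, rfl⟩ := h3 y hy
        refine ⟨(mem_normalizer_iff.1 (n1 (pow_mem hx i)) a).1 ha, fun e => hne ?_, _,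
          pow_mem (mem_centralizer_singleton_iff.2 e) i, rfl⟩
        calc _ = (x ^ i)⁻¹ * (x * (x ^ i * a * (x ^ i)⁻¹)) * x ^ i := by group
          _ = _ := by rw [e]; group
      rw [Nat.sub_add_cancel hs.pos, show s - 1 + (s + 1) = s * 2 by omega, mul_assoc,
        mul_assoc] at h8
      exact Nat.le_of_mul_le_mul_left h8 hs.pos
    have h8 := card_sdiff_add_card_eq_card (filter_subset _ _ : F ⊆ E P₀)
    rw [card_E] at h8
    rw [smul_eq_mul] at h6
    rw [hcard] at hlt hc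
    have h9 := Nat.lt_of_mul_lt_mul_left (by rwa [mul_left_comm] at hlt :
      s * (Nat.card A * Nat.card P₀) < _)
    have h10 : (s + 1) * R.card ≤ 2 * (E P₀ \ F).card := by nlinarith
    nlinarith [Nat.mul_le_mul_left (Nat.card A) h10, Nat.mul_le_mul_left (s + 1) h9,
      Nat.mul_le_mul_left (s + 1) h6, Nat.zero_le ((s + 1) * ∑ z ∈ F ∩ R, kPi σ (centralizer {z}))]

theorem card_sup_comm {s : ℕ} (hs : s.Prime) {A P : Subgroup G} (hP : IsPGroup s P)
    (hA : ¬ s ∣ Nat.card A) (h : P ≤ centralizer (A : Set G)) :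
    Nat.card (A ⊔ P : Subgroup G) = Nat.card A * Nat.card P := by
  have := Fact.mk hs
  obtain ⟨j, hj⟩ := hP.exists_card_eq
  exact card_sup_of_le_normalizer (h.trans (centralizer_le_normalizer _))
    (inf_eq_bot_of_coprime' (hj ▸ ((hs.coprime_iff_not_dvd).2 hA).symm.pow_right j))

theorem split_part {π : Set ℕ} {s : ℕ} [hs : Fact s.Prime] (h : s ∈ π) {m k : ℕ}
    (e : Nat.card G = m * k) (hm : IsPiNum π m) (hk : IsPiNum πᶜ k) (S : Sylow s G) :
    ∃ m', m = m' * Nat.card S ∧ IsPiNum (π \ {s}) m' ∧ IsPiNum (π \ {s})ᶜ (Nat.card S * k) := by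
  have hS := isPiNum_card_of_isPGroup hs.out S.2 h
  obtain ⟨m', hm'⟩ := (hS.coprime hk).dvd_of_dvd_mul_right (e ▸ card_subgroup_dvd_card _)
  refine ⟨m', by rw [hm', mul_comm], fun r hr hd => ⟨hm r hr (hd.trans (Dvd.intro_left _ hm'.symm)),
    fun h1 => S.not_dvd_index ?_⟩, IsPiNum.mul ((isPiNum_card_of_isPGroup hs.out S.2
      (π := {s}) rfl).mono fun r hr h => h.2 hr) (hk.mono fun r hr h => hr h.1)⟩
  rw [Nat.eq_of_mul_eq_mul_left Nat.card_pos ((S : Subgroup G).card_mul_index.trans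
    (e.trans (by rw [hm', mul_assoc])))]
  exact (h1 ▸ hd).mul_right k

theorem mm (σ : Finset ℕ) (hσ : ∀ r ∈ σ, r.Prime) : MM.{u} σ := by
  induction σ using Finset.induction_on_min with
  | empty =>
    intro q _ G _ _ _ m k _ hm _ _
    exact ⟨⊥, card_bot.trans (Nat.eq_one_iff_not_exists_prime_dvd.2 fun r hr hd => by
      simpa using hm r hr hd).symm, inferInstance⟩
  | insert s σ hlt ih =>
    intro q hq G _ _ hA m k e hm hk h
    have hs := Fact.mk (hσ s (mem_insert_self _ _))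
    have h0 : s ∈ ((insert s σ : Finset ℕ) : Set ℕ) := by simp
    have h1 : ((insert s σ : Finset ℕ) : Set ℕ) \ {s} = σ := by
      rw [coe_insert, Set.insert_sdiff_self_of_notMem fun h => lt_irrefl _ (hlt s h)]
    obtain ⟨S⟩ : Nonempty (Sylow s G) := inferInstance
    obtain ⟨m', rfl, h2, h3⟩ := split_part h0 e hm hk S
    rw [h1] at h2 h3
    obtain ⟨A, P, rfl, a1, p1, p2, p3⟩ := step (π := (insert s σ : Finset ℕ)) hlt
      (ih fun r hr => hσ r (mem_insert_of_mem hr)) (fun r hr => hA r (mem_insert_of_mem hr))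
      (fun r _ _ h h' => h1 ▸ ⟨h, h'⟩) (e.trans (mul_assoc _ _ _)) h2 h3 S
      (h.trans_le (Nat.mul_le_mul_right _ (hq s h0)))
    refine ⟨A ⊔ P, ?_, PGroup.isMulCommutative_iff.2 fun a ha b hb => ?_⟩
    · rw [card_sup_comm hs.out p1 (fun hd => lt_irrefl _ (hlt s (h2 s hs.out hd))) p3,
        S.card_eq_multiplicity.trans (p1.toSylow p2).card_eq_multiplicity.symm]; rfl
    · have c1 := le_centralizer (h := a1)
      have c2 := le_centralizer (h := hA s h0 P p1)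
      have : A ⊔ P ≤ centralizer ((A ⊔ P : Subgroup G) : Set G) := le_centralizer_iff.2 (sup_le
        (le_centralizer_iff.1 (sup_le c1 p3)) (le_centralizer_iff.1 (sup_le
          (le_centralizer_iff.1 p3) c2)))
      exact this hb a ha

theorem pbound {R : Type*} [Group R] [Finite R] {r : ℕ} (hr : r.Prime) (hR : IsPGroup r R) :
    Nat.card (_root_.commutator R) = 1 ∨ (r ≤ Nat.card (_root_.commutator R) ∧
      r ^ 3 * Nat.card (ConjClasses R) ≤ (r ^ 2 + r - 1) * Nat.card R) ∧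
      (Nat.card (_root_.commutator R) ≤ r ∨ r * Nat.card (ConjClasses R) ≤ Nat.card R) := by
  have := Fact.mk hr
  obtain ⟨j, hj⟩ := (hR.to_subgroup (_root_.commutator R)).exists_card_eq
  obtain ⟨n, hn⟩ := hR.exists_card_eq
  have h1 := AutOrb.classes_bound (G := R)
  have h2 := (_root_.commutator R).card_mul_index
  rcases j with _ | j
  · exact Or.inl hj
  have h3 : n ≠ 0 := fun h => by
    rw [hj, hn, h, pow_succ] at h2
    exact hr.ne_one (Nat.eq_one_of_mul_eq_one_left (Nat.eq_one_of_mul_eq_one_right h2))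
  rw [show (Nat.card R).minFac = r by rw [hn]; exact hr.pow_minFac h3] at h1
  have h4 : r ≤ Nat.card (_root_.commutator R) := hj ▸ Nat.le_self_pow j.succ_ne_zero r
  have h5 := hr.two_le
  obtain ⟨t, ht⟩ : ∃ t, r ^ 2 = t + 1 := ⟨r ^ 2 - 1, by have := pow_pos hr.pos 2; omega⟩
  generalize Nat.card (ConjClasses R) = k at *
  generalize (_root_.commutator R).index = i at *
  have h6 : r ^ 2 * k ≤ Nat.card R + t * i := by nlinarith
  refine Or.inr ⟨⟨h4, ?_⟩, ?_⟩
  · rw [ht, show t + 1 + r - 1 = t + r by omega]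
    nlinarith [Nat.mul_le_mul_left r h6, Nat.mul_le_mul_right (t * i) h4]
  · rcases j with _ | j
    · exact Or.inl (by rw [hj, zero_add, pow_one])
    · have h7 : r ^ 2 ≤ Nat.card (_root_.commutator R) :=
        hj ▸ Nat.pow_le_pow_right hr.pos (by omega)
      refine Or.inr (Nat.le_of_mul_le_mul_left ?_ (pow_pos hr.pos 3))
      have h8 : 2 * r ^ 2 ≤ r ^ 3 := by nlinarith
      nlinarith [Nat.mul_le_mul_left (r ^ 2) h6, Nat.mul_le_mul_right (t * i) h7,
        Nat.mul_le_mul_right (Nat.card R) h8]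

theorem comm_of_card {R : Type*} [Group R] (h : Nat.card (_root_.commutator R) = 1) :
    IsMulCommutative R := ⟨⟨fun a b => commutatorElement_eq_one_iff_mul_comm.1 (by
  rw [← mem_bot, ← card_eq_one.1 h]; exact commutator_mem_commutator (mem_top a) (mem_top b))⟩⟩

theorem kPi_le_sylow {π : Set ℕ} {r : ℕ} [hr : Fact r.Prime] {R : Subgroup G} (hR : IsPGroup r R)
    (hi : ¬ r ∣ R.index) {m k : ℕ} (e : Nat.card G = m * k) (hk : IsPiNum (π \ {r})ᶜ k) :
    kPi π G ≤ Nat.card (ConjClasses R) * m := by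
  have := Fintype.ofFinite (ConjClasses R)
  refine (kPi_le_sum (σ := π \ {r}) (τ := {r}) (fun _ _ _ h h' => ⟨h, h'⟩)
    (univ.image fun L : ConjClasses R => ((rep L : R) : G)) fun z hz => ?_).trans
    ((sum_le_card_nsmul _ _ m fun z _ => kPi_le_of_dvd (fun h => Nat.card_pos.ne' (by
      rw [e, h, zero_mul])) (e ▸ card_subgroup_dvd_card _) hk).trans (Nat.mul_le_mul_right _ ?_))
  · obtain ⟨c, -, hc⟩ := exists_conj_smul_le_sylow (K := ⊤) le_top hR
      (by rw [relIndex_top_right]; exact hi) le_top (isPGroup_of_piNum hz)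
    obtain ⟨g, hg⟩ := exists_rep (⟨_, mem_conj_smul_iff.1 (hc (mem_zpowers z))⟩ : R)
    exact ⟨g * c⁻¹, mem_image.2 ⟨_, mem_univ _, by rw [← hg]; simp [mul_assoc]⟩⟩
  · rw [Nat.card_eq_fintype_card]
    exact card_image_le

theorem main {π : Set ℕ} {p : ℕ} [hp' : Fact p.Prime] (hp : p ∈ π) (hmin : ∀ q ∈ π, p ≤ q)
    {m k : ℕ} (e : Nat.card G = m * k) (hm : IsPiNum π m) (hk : IsPiNum πᶜ k)
    (h : m < p * kPi π G) : ∃ (H P : Subgroup G) (hle : P ≤ H), Nat.card H = m ∧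
      Group.IsNilpotent H ∧ _root_.commutator H ≤ (_root_.commutator P).map (inclusion hle) ∧
      IsPGroup p P ∧ ∃ m', m = m' * Nat.card P ∧ kPi π G ≤ Nat.card (ConjClasses P) * m' := by
  have hm0 : m ≠ 0 := fun h => Nat.card_pos.ne' (by rw [e, h, zero_mul])
  let σ := m.primeFactors.erase p
  have hσ : ∀ r, r ∈ σ ↔ r ≠ p ∧ r.Prime ∧ r ∣ m := fun r => by simp [σ, hm0]
  have hA : AbS σ G := fun r hr R hR => by
    obtain ⟨h1, h2, h3⟩ := (hσ r).1 hr
    have := Fact.mk h2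
    obtain ⟨S, hS⟩ := hR.exists_le_sylow
    obtain ⟨m', e', -, h4⟩ := split_part (hm r h2 h3) e hm hk S
    have h5 := kPi_le_sylow S.2 S.not_dvd_index (e.trans (by rw [e', mul_assoc])) h4
    have h6 : Nat.card S < p * Nat.card (ConjClasses S) := Nat.lt_of_mul_lt_mul_left (a := m') (by
      rw [← e']; exact h.trans_le ((Nat.mul_le_mul_left p h5).trans (le_of_eq (by ring))))
    have h7 : IsMulCommutative S := comm_of_card ((pbound h2 S.2).resolve_right fun h8 => ?_)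
    · exact PGroup.isMulCommutative_iff.2 fun a ha b hb =>
        PGroup.isMulCommutative_iff.1 h7 a (hS ha) b (hS hb)
    obtain ⟨d, rfl⟩ := Nat.exists_eq_add_of_lt (lt_of_le_of_ne (hmin r (hm r h2 h3)) h1.symm)
    have h9 : p * ((p + d + 1) ^ 2 + (p + d + 1) - 1) ≤ (p + d + 1) ^ 3 := by
      rw [← add_assoc, Nat.add_sub_cancel]
      nlinarith [Nat.zero_le (p * d), Nat.zero_le (p * d * d), Nat.zero_le (p * p * d),
        Nat.zero_le (d * d * d), Nat.zero_le (d * d)]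
    nlinarith [Nat.mul_le_mul_left p h8.1.2, Nat.mul_le_mul_right (Nat.card S) h9,
      Nat.mul_le_mul_left ((p + d + 1) ^ 3) h6, pow_pos h2.pos 3]
  obtain ⟨S⟩ : Nonempty (Sylow p G) := inferInstance
  obtain ⟨m', e', h2, h3⟩ := split_part hp e hm hk S
  have e2 : Nat.card G = m' * (Nat.card S * k) := e.trans (by rw [e', mul_assoc])
  obtain ⟨A, P, rfl, a1, p1, p2, p3⟩ := step (π := π) (σ := σ) (fun r hr => by
      obtain ⟨h1, h2, h3⟩ := (hσ r).1 hr
      exact lt_of_le_of_ne (hmin r (hm r h2 h3)) h1.symm)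
    (mm σ fun r hr => ((hσ r).1 hr).2.1) hA (fun r hr hd h h' => (hσ r).2 ⟨h', hr,
      ((hr.dvd_mul).1 (e ▸ hd)).resolve_right fun h1 => hk r hr h1 h⟩) e2
    (fun r hr hd => (hσ r).2 ⟨(h2 r hr hd).2, hr, e' ▸ hd.mul_right _⟩)
    (h3.mono fun r hr h => hr ⟨hm r ((hσ r).1 h).2.1 ((hσ r).1 h).2.2, ((hσ r).1 h).1⟩) S (e' ▸ h)
  have hS : Nat.card S = Nat.card P :=
    S.card_eq_multiplicity.trans (p1.toSylow p2).card_eq_multiplicity.symm
  have hc : ∀ (a : A) (x : P), Commute (inclusion (le_sup_left : A ≤ A ⊔ P) a)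
      (inclusion (le_sup_right : P ≤ A ⊔ P) x) := fun a x => Subtype.ext (p3 x.2 a a.2)
  let φ := MonoidHom.noncommCoprod _ _ hc
  have hφ : Function.Surjective φ := fun x => by
    obtain ⟨a, ha, y, hy, h⟩ := (mem_sup_iff_of_le_normalizer
      (p3.trans (centralizer_le_normalizer _))).1 x.2
    exact ⟨(⟨a, ha⟩, ⟨y, hy⟩), Subtype.ext h⟩
  refine ⟨A ⊔ P, P, le_sup_right, ?_, ?_, commutator_le.2 fun x _ y _ => ?_, p1, _, hS ▸ e',
    kPi_le_sylow p1 p2 e2 h3⟩
  · rw [card_sup_comm hp'.out p1 (fun hd => (h2 p hp'.out hd).2 rfl) p3, e', hS]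
  · have := nilp_of_comm a1
    have := p1.isNilpotent
    exact Group.nilpotent_of_surjective φ hφ
  · obtain ⟨⟨a, x⟩, rfl⟩ := hφ x
    obtain ⟨⟨b, y⟩, rfl⟩ := hφ y
    refine ⟨⁅x, y⁆, commutator_mem_commutator (mem_top _) (mem_top _), ?_⟩
    have : ⁅(a, x), (b, y)⁆ = (1, ⁅x, y⁆) :=
      Prod.ext (commutatorElement_eq_one_iff_mul_comm.2 (a1.is_comm.comm a b)) rfl
    rw [← map_commutatorElement φ, this]
    simp [φ]

end CfsgLib.KPi
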